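import Cfsg.Agent.H481.E6C.CoreC
import Cfsg.Agent.H757.Hall.E6One
import Cfsg.Agent.H343.Hall.EComm

/-!
# S2223, E-4: `coreRow_b` (helper910)

`MV G k0` : the elements of `G` which permute the four fundamental subgroups `SL₂(k0)` of the frame by an element of the
four-group; `MG G k0` (helper481) is normal in it, with quotient a 2-group. `T` is a Sylow 2-subgroup of `MV G k0` containing a
Sylow 2-subgroup of `MG G k0`.
-/

set_option autoImplicit false

namespace Cfsg.Agent.H910.Hall.E6B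

open Cfsg.Lie Cfsg.Agent.ChevalleyStructure.E6Min.Tables Cfsg.Agent.ChevalleyStructure.E6Min.Basic
  Cfsg.Agent.ChevalleyStructure.E6Min.Torus Cfsg.Agent.H125.Hall Cfsg.Agent.H125.Hall.E6 Cfsg.Agent.H481.E6C
open scoped Matrix Pointwise

/-- the four-group -/
def IsV (s : Equiv.Perm (Fin 4)) : Prop := s * s = 1 ∧ (s = 1 ∨ ∀ l, s l ≠ l)

instance (s : Equiv.Perm (Fin 4)) : Decidable (IsV s) := inferInstanceAs (Decidable (_ ∧ _))

theorem isV_mul : ∀ s t : Equiv.Perm (Fin 4), IsV s → IsV t → IsV (s * t) := by decide +kernel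

theorem IsV.inv {s : Equiv.Perm (Fin 4)} (h : IsV s) : IsV s⁻¹ := by
  rwa [inv_eq_of_mul_eq_one_left h.1]

/-- `(0 1)(2 3)` -/
def pa : Equiv.Perm (Fin 4) := Equiv.swap 0 1 * Equiv.swap 2 3

/-- `(0 2)(1 3)` -/
def pb : Equiv.Perm (Fin 4) := Equiv.swap 0 2 * Equiv.swap 1 3

theorem pa_coe : (⇑pa : Fin 4 → Fin 4) = ![1, 0, 3, 2] := by decide +kernel

theorem pb_coe : (⇑pb : Fin 4 → Fin 4) = ![2, 3, 0, 1] := by decide +kernel

theorem isV_pa : IsV pa := by decide +kernel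

theorem isV_pb : IsV pb := by decide +kernel

section

variable {K : Type*} [Field K] {k0 : Subfield K}

theorem nrm_mul' {s t : Fin 4 → Fin 4} {x y : GL I27 K} (hx : Nrm k0 s x) (hy : Nrm k0 t y) :
    Nrm k0 (s ∘ t) (x * y) := by
  intro l A hA
  obtain ⟨A', hA', h1⟩ := hy l A hA
  obtain ⟨A'', hA'', h2⟩ := hx (t l) A' hA'
  refine ⟨A'', hA'', ?_⟩
  rw [Units.val_mul, mul_assoc, h1, ← mul_assoc, h2, mul_assoc]
  rfl

theorem nrm_inv' [Finite K] {s : Equiv.Perm (Fin 4)} {m : GL I27 K} (h : Nrm k0 s m) : Nrm k0 ⇑s⁻¹ m⁻¹ := by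
  intro l A hA
  choose f hf1 hf2 using fun (B : {B : Matrix (Fin 2) (Fin 2) K // SlIn k0 B}) => h (s⁻¹ l) B.1 B.2
  let F : {B : Matrix (Fin 2) (Fin 2) K // SlIn k0 B} → {B : Matrix (Fin 2) (Fin 2) K // SlIn k0 B} :=
    fun B => ⟨f B, hf1 B⟩
  have hinj : Function.Injective F := by
    intro B C hBC
    have h1 : f B = f C := congrArg Subtype.val hBC
    have h2 := hf2 B
    rw [h1, ← hf2 C] at h2
    have h3 := congrArg (fun X => ((m⁻¹ : GL I27 K) : Matrix I27 I27 K) * X) h2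
    simp only [← mul_assoc, ← Units.val_mul, inv_mul_cancel, Units.val_one, one_mul] at h3
    exact Subtype.ext (Ph_inj _ h3)
  obtain ⟨B, hB⟩ := (Finite.injective_iff_surjective.1 hinj) ⟨A, hA⟩
  have hB' : f B = A := congrArg Subtype.val hB
  refine ⟨B.1, B.2, ?_⟩
  have h1 := hf2 B
  rw [hB', show s (s⁻¹ l) = l by simp] at h1
  have h2 := congrArg (fun X => ((m⁻¹ : GL I27 K) : Matrix I27 I27 K) * X * ((m⁻¹ : GL I27 K) : Matrix I27 I27 K)) h1
  simp only [mul_assoc] at h2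
  rw [← Units.val_mul, mul_inv_cancel, Units.val_one, mul_one, ← mul_assoc,
    ← Units.val_mul, inv_mul_cancel, Units.val_one, one_mul] at h2
  exact h2.symm

/-- `Ph l (-1)` is permuted by everything that permutes the frame -/
theorem nrm_comm {s : Fin 4 → Fin 4} (h2 : (2 : K) ≠ 0) {y : GL I27 K} (hy : Nrm k0 s y) (l : Fin 4) :
    (y : Matrix I27 I27 K) * Ph l (-1) = Ph (s l) (-1) * (y : Matrix I27 I27 K) := by
  have hs : SlIn k0 (-1) := by
    refine ⟨by simp [Matrix.det_fin_two], fun i j => ?_⟩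
    rw [Matrix.neg_apply]
    refine neg_mem ?_
    rw [Matrix.one_apply]
    split_ifs
    · exact one_mem _
    · exact zero_mem _
  obtain ⟨A, hA, h1⟩ := hy l (-1) hs
  have h3 : Ph (s l) (A * A) * (y : Matrix I27 I27 K) = y := by
    rw [← Ph_mul, mul_assoc, ← h1, ← mul_assoc, ← h1, mul_assoc, Ph_mul]
    simp [Ph_one]
  have h4 : Ph (s l) (A * A) = 1 := by
    have := congrArg (· * ((y⁻¹ : GL I27 K) : Matrix I27 I27 K)) h3
    simp only [mul_assoc, ← Units.val_mul, mul_inv_cancel, Units.val_one, mul_one] at this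
    exact this
  have h5 : A * A = 1 := Ph_inj (s l) (by rw [h4, Ph_one])
  have hd := hA.1
  rw [Matrix.det_fin_two] at hd
  have a00 := congrFun (congrFun h5 0) 0
  have a01 := congrFun (congrFun h5 0) 1
  have a10 := congrFun (congrFun h5 1) 0
  have a11 := congrFun (congrFun h5 1) 1
  simp only [Matrix.mul_apply, Fin.sum_univ_two, Matrix.one_apply_eq, Matrix.one_apply_ne (show (0 : Fin 2) ≠ 1 by decide),
    Matrix.one_apply_ne (show (1 : Fin 2) ≠ 0 by decide)] at a00 a01 a10 a11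
  have ht : A 0 0 * (A 0 0 + A 1 1) = 2 := by linear_combination a00 + hd
  have ht0 : A 0 0 + A 1 1 ≠ 0 := by
    intro h
    rw [h, mul_zero] at ht
    exact h2 ht.symm
  have b01 : A 0 1 = 0 := by
    have : A 0 1 * (A 0 0 + A 1 1) = 0 := by linear_combination a01
    exact (mul_eq_zero.1 this).resolve_right ht0
  have b10 : A 1 0 = 0 := by
    have : A 1 0 * (A 0 0 + A 1 1) = 0 := by linear_combination a10
    exact (mul_eq_zero.1 this).resolve_right ht0
  rw [b01, zero_mul, add_zero] at a00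
  rw [b10, zero_mul, zero_add] at a11
  rw [b01, zero_mul, sub_zero] at hd
  have e11 : A 1 1 = A 0 0 := by
    calc A 1 1 = (A 0 0 * A 0 0) * A 1 1 := by rw [a00, one_mul]
      _ = A 0 0 * (A 0 0 * A 1 1) := by ring
      _ = A 0 0 := by rw [hd, mul_one]
  rcases mul_self_eq_one_iff.1 a00 with h6 | h6
  · exfalso
    have hA1 : A = 1 := by
      ext i j
      fin_cases i <;> fin_cases j <;> simp [b01, b10, e11, h6]
    rw [hA1, Ph_one, one_mul] at h1
    have h7 : Ph l (-1 : Matrix (Fin 2) (Fin 2) K) = 1 := by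
      have := congrArg (((y⁻¹ : GL I27 K) : Matrix I27 I27 K) * ·) h1
      simp only [← mul_assoc, ← Units.val_mul, inv_mul_cancel, Units.val_one, one_mul] at this
      exact this
    have h8 : (-1 : Matrix (Fin 2) (Fin 2) K) = 1 := Ph_inj l (by rw [h7, Ph_one])
    have h9 := congrFun (congrFun h8 0) 0
    rw [Matrix.neg_apply, Matrix.one_apply_eq] at h9
    apply h2
    linear_combination -h9
  · have hA1 : A = -1 := by
      ext i j
      fin_cases i <;> fin_cases j <;> simp [b01, b10, e11, h6]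
    rw [hA1] at h1
    exact h1

/-- the elements permuting the frame by the four-group -/
def MV [Finite K] (G : Subgroup (GL I27 K)) (k0 : Subfield K) : Subgroup ↥G where
  carrier := {y | ∃ s : Equiv.Perm (Fin 4), IsV s ∧ Nrm k0 s (y : GL I27 K)}
  mul_mem' := by
    rintro x y ⟨s, hs, hx⟩ ⟨t, ht, hy⟩
    exact ⟨s * t, isV_mul s t hs ht, by rw [Equiv.Perm.coe_mul]; exact nrm_mul' hx hy⟩
  one_mem' := ⟨1, by decide +kernel, by rw [Equiv.Perm.coe_one]; exact nrm_one⟩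
  inv_mem' := by
    rintro x ⟨s, hs, hx⟩
    exact ⟨s⁻¹, hs.inv, nrm_inv' hx⟩

theorem mg_le [Finite K] (G : Subgroup (GL I27 K)) (k0 : Subfield K) : MG G k0 ≤ MV G k0 := fun x hx =>
  ⟨1, by decide +kernel, by rw [Equiv.Perm.coe_one]; exact hx⟩

instance mg_normal [Finite K] (G : Subgroup (GL I27 K)) (k0 : Subfield K) : ((MG G k0).subgroupOf (MV G k0)).Normal := by
  refine ⟨?_⟩
  rintro ⟨x, hx⟩ hxM ⟨m, s, hs, hm⟩
  rw [Subgroup.mem_subgroupOf] at hxM ⊢
  show Nrm k0 id ((m * x * m⁻¹ : ↥G) : GL I27 K)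
  have h1 : Nrm k0 id ((x : ↥G) : GL I27 K) := hxM
  have h2 := nrm_mul' (nrm_mul' hm h1) (nrm_inv' hm)
  have e : ((⇑s ∘ id) ∘ ⇑s⁻¹ : Fin 4 → Fin 4) = id := by
    funext l
    simp
  rw [e] at h2
  exact h2

theorem quot_two [Finite K] (G : Subgroup (GL I27 K)) (k0 : Subfield K) :
    IsPGroup 2 (↥(MV G k0) ⧸ (MG G k0).subgroupOf (MV G k0)) := by
  intro x
  obtain ⟨⟨m, s, hs, hm⟩, rfl⟩ := QuotientGroup.mk_surjective x
  refine ⟨1, ?_⟩
  rw [pow_one, ← QuotientGroup.mk_pow, QuotientGroup.eq_one_iff, Subgroup.mem_subgroupOf]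
  show Nrm k0 id ((m ^ 2 : ↥G) : GL I27 K)
  have h2 := nrm_mul' hm hm
  rw [← Equiv.Perm.coe_mul, hs.1, Equiv.Perm.coe_one] at h2
  rw [pow_two]
  exact h2

/-- a Sylow 2-subgroup covers the quotient -/
theorem exists_cover [Finite K] {G : Subgroup (GL I27 K)} {k0 : Subfield K} (T : Sylow 2 (MV G k0)) {s : Equiv.Perm (Fin 4)}
    (hs : IsV s) {v : GL I27 K} (hv : v ∈ G) (h : Nrm k0 s v) :
    ∃ t : MV G k0, t ∈ T ∧ Nrm k0 s ((t : ↥G) : GL I27 K) := by
  let v' : MV G k0 := ⟨⟨v, hv⟩, s, hs, h⟩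
  let Q : Sylow 2 (↥(MV G k0) ⧸ (MG G k0).subgroupOf (MV G k0)) :=
    T.mapSurjective (QuotientGroup.mk'_surjective ((MG G k0).subgroupOf (MV G k0)))
  have h1 : (⊤ : Subgroup (↥(MV G k0) ⧸ (MG G k0).subgroupOf (MV G k0))) = (Q : Subgroup _) :=
    Q.is_maximal' ((quot_two G k0).to_subgroup ⊤) le_top
  have h2 : (QuotientGroup.mk' ((MG G k0).subgroupOf (MV G k0))) v' ∈ (Q : Subgroup _) := by
    rw [← h1]
    exact Subgroup.mem_top _
  obtain ⟨t, ht, hte⟩ := h2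
  refine ⟨t, ht, ?_⟩
  have h3 : v'⁻¹ * t ∈ (MG G k0).subgroupOf (MV G k0) := by
    rw [← QuotientGroup.eq_one_iff, QuotientGroup.mk_mul, QuotientGroup.mk_inv]
    have h4 : (QuotientGroup.mk t : ↥(MV G k0) ⧸ (MG G k0).subgroupOf (MV G k0)) = QuotientGroup.mk v' := hte
    rw [h4, inv_mul_cancel]
  rw [Subgroup.mem_subgroupOf] at h3
  have h4 : Nrm k0 id (((v'⁻¹ * t : MV G k0) : ↥G) : GL I27 K) := h3
  have h5 := nrm_mul' h h4
  have e : v * (((v'⁻¹ * t : MV G k0) : ↥G) : GL I27 K) = ((t : ↥G) : GL I27 K) := by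
    have e1 : v' * (v'⁻¹ * t) = t := by group
    exact congrArg (fun x : MV G k0 => ((x : ↥G) : GL I27 K)) e1
  rw [e] at h5
  exact h5

theorem coreRow_b [Finite K] {p : ℕ} [Fact p.Prime] [CharP K p] (hp : p ≠ 2) {G : Subgroup (GL I27 K)}
    (hG : G ≤ Zgrp K) {k0 : Subfield K} (hk : FrIn G k0)
    (hv : ∃ v ∈ G, Nrm k0 ![1, 0, 3, 2] v) (hw : ∃ w ∈ G, Nrm k0 ![2, 3, 0, 1] w)
    (hy : ∀ k : Fin 4, k ≠ 0 → ∃ y ∈ G, (∀ l A, A.det = 1 → (y : Matrix I27 I27 K) * Ph l A = Ph l A * (y : Matrix I27 I27 K)) ∧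
      (y : Matrix I27 I27 K) ^ 2 = Ph 0 (-1) * Ph k (-1) ∧
      ∃ P : Polynomial K, P ≠ 0 ∧ P.natDegree ≤ 2 ∧
        Module.finrank K (LinearMap.range (Polynomial.aeval ((y : Matrix I27 I27 K).mulVecLin) P)) ≤ 1) :
    CoreRow p ↥G := by
  have h2 : (2 : K) ≠ 0 := by
    intro h
    have h3 : ((2 : ℕ) : K) = 0 := by exact_mod_cast h
    rw [CharP.cast_eq_zero_iff K p] at h3
    exact hp ((Nat.prime_dvd_prime_iff_eq Fact.out Nat.prime_two).1 h3)
  have hE : Cfsg.Agent.H343.Hall.EComm.EC2 K := fun hz h6 h7 => Cfsg.Agent.H757.Hall.eq_one_of_fix hz h6 h7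
  obtain ⟨P0⟩ : Nonempty (Sylow 2 (MG G k0)) := inferInstance
  obtain ⟨T, hT⟩ := (P0.2.map (Subgroup.inclusion (mg_le G k0))).exists_le_sylow
  have hP0T : ∀ u : MG G k0, u ∈ P0 → ∃ t : MV G k0, t ∈ T ∧ (t : ↥G) = (u : ↥G) := fun u hu =>
    ⟨Subgroup.inclusion (mg_le G k0) u, hT ⟨u, hu, rfl⟩, rfl⟩
  have hext : ∀ x y : MG G k0, (((x : ↥G) : GL I27 K) : Matrix I27 I27 K) = (((y : ↥G) : GL I27 K) : Matrix I27 I27 K) →
      x = y := fun x y h => Subtype.ext (Subtype.ext (Units.ext h))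
  -- central 2-elements of `MG` lie in `P0`
  have hcen : ∀ u : MG G k0, u ^ 2 ^ 2 = 1 → (∀ m : MG G k0, (((u : ↥G) : GL I27 K) : Matrix I27 I27 K) *
      (((m : ↥G) : GL I27 K) : Matrix I27 I27 K) = (((m : ↥G) : GL I27 K) : Matrix I27 I27 K) *
      (((u : ↥G) : GL I27 K) : Matrix I27 I27 K)) → u ∈ P0 := by
    intro u hu hc
    obtain ⟨m, hm⟩ := conj_into P0 (isPGroup_zpowers hu)
    have h3 := hm u (Subgroup.mem_zpowers _)
    have h4 : m⁻¹ * u * m = u := by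
      have h5 : u * m = m * u := by
        refine hext _ _ ?_
        simp only [Subgroup.coe_mul, Units.val_mul]
        exact hc m
      rw [mul_assoc, h5, inv_mul_cancel_left]
    rwa [h4] at h3
  have hsl : SlIn k0 (-1 : Matrix (Fin 2) (Fin 2) K) := by
    refine ⟨by simp [Matrix.det_fin_two], fun i j => ?_⟩
    rw [Matrix.neg_apply]
    refine neg_mem ?_
    rw [Matrix.one_apply]
    split_ifs
    · exact one_mem _
    · exact zero_mem _
  have hzz : ∀ k : Fin 4, ∃ t : MV G k0, t ∈ T ∧ (((t : ↥G) : GL I27 K) : Matrix I27 I27 K) = Ph k (-1) := by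
    intro k
    obtain ⟨z, hzG, hz⟩ := Ph_mem hk k hsl
    set z' : MG G k0 := ⟨⟨z, hzG⟩, nrm_Ph hsl hz⟩ with hz'
    have hcz : ((z' : ↥G) : GL I27 K) = z := rfl
    have h3 : z' ∈ P0 := by
      refine hcen z' ?_ ?_
      · refine hext _ _ ?_
        simp only [Subgroup.coe_pow, mat_pow, hcz, hz]
        rw [show (2 ^ 2 : ℕ) = 2 * 2 by norm_num, pow_mul, pow_two (Ph k (-1)), Ph_sq_neg, one_pow]
        rfl
      · intro m
        rw [hcz, hz]
        exact (Nrm.comm h2 m.2 k).symm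
    obtain ⟨t, ht, h4⟩ := hP0T z' h3
    exact ⟨t, ht, by rw [h4, hcz, hz]⟩
  have hyy : ∀ k : Fin 4, k ≠ 0 → ∃ t : MV G k0, t ∈ T ∧
      (((t : ↥G) : GL I27 K) : Matrix I27 I27 K) ^ 2 = Ph 0 (-1) * Ph k (-1) ∧
      (((t : ↥G) : GL I27 K) : Matrix I27 I27 K) ^ 4 = 1 ∧
      ∃ P : Polynomial K, P ≠ 0 ∧ P.natDegree ≤ 2 ∧ Module.finrank K
        (LinearMap.range (Polynomial.aeval ((((t : ↥G) : GL I27 K) : Matrix I27 I27 K).mulVecLin) P)) ≤ 1 := by
    intro k hk0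
    obtain ⟨y, hyG, hyc, hy2, hyP⟩ := hy k hk0
    have hy4 : (y : Matrix I27 I27 K) ^ 4 = 1 := by
      rw [show (4 : ℕ) = 2 * 2 by norm_num, pow_mul, hy2, pow_two]
      have h4 : Ph k (-1 : Matrix (Fin 2) (Fin 2) K) * Ph 0 (-1) = Ph 0 (-1) * Ph k (-1) := Ph_comm hk0 (-1) (-1)
      calc Ph 0 (-1 : Matrix (Fin 2) (Fin 2) K) * Ph k (-1) * (Ph 0 (-1) * Ph k (-1)) =
            Ph 0 (-1) * (Ph k (-1) * Ph 0 (-1)) * Ph k (-1) := by simp only [mul_assoc]
        _ = Ph 0 (-1) * (Ph 0 (-1) * Ph k (-1)) * Ph k (-1) := by rw [h4]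
        _ = (Ph 0 (-1) * Ph 0 (-1)) * (Ph k (-1) * Ph k (-1)) := by simp only [mul_assoc]
        _ = 1 := by rw [Ph_sq_neg, Ph_sq_neg, one_mul]
    set y' : MG G k0 := ⟨⟨y, hyG⟩, fun l A hA => ⟨A, hA, hyc l A hA.1⟩⟩ with hy'
    have hcy : ((y' : ↥G) : GL I27 K) = y := rfl
    have h3 : y' ∈ P0 := by
      refine hcen y' ?_ ?_
      · refine hext _ _ ?_
        simp only [Subgroup.coe_pow, mat_pow, hcy]
        rw [show (2 ^ 2 : ℕ) = 4 by norm_num, hy4]
        rfl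
      · intro m
        have h4 := Cfsg.Agent.H343.Hall.EComm.comm_of_frame_of hE h2 (g := y) (c := ((m : ↥G) : GL I27 K)) (hG hyG)
          (hG (m : ↥G).2) (fun k => ?_) (fun k => hyc k _ (by simp [Matrix.det_fin_two])) (fun k => Nrm.comm h2 m.2 k)
        · rw [hcy]
          have h5 := congrArg (fun x : GL I27 K => (x : Matrix I27 I27 K)) h4
          simpa only [Units.val_mul] using h5
        · refine ⟨!![1, 1; 0, 1], !![1, 0; 1, 1], by simp [Matrix.det_fin_two], by simp [Matrix.det_fin_two], ?_,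
            hyc k _ (by simp [Matrix.det_fin_two]), hyc k _ (by simp [Matrix.det_fin_two])⟩
          intro h5
          have h6 := congrFun (congrFun h5 0) 0
          simp [Matrix.mul_apply, Fin.sum_univ_two] at h6
    obtain ⟨t, ht, h4⟩ := hP0T y' h3
    refine ⟨t, ht, ?_⟩
    rw [h4, hcy]
    exact ⟨hy2, hy4, hyP⟩
  obtain ⟨v, hvG, hv1⟩ := hv
  obtain ⟨w, hwG, hw1⟩ := hw
  rw [← pa_coe] at hv1
  rw [← pb_coe] at hw1
  obtain ⟨v', hvT, hv2⟩ := exists_cover T isV_pa hvG hv1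
  obtain ⟨w', hwT, hw2⟩ := exists_cover T isV_pb hwG hw1
  rw [pa_coe] at hv2
  rw [pb_coe] at hw2
  refine ⟨(T : Subgroup (MV G k0)).map (MV G k0).subtype, T.2.map _, ?_⟩
  intro H hTH hpH g hg c hc
  have hgT : ∀ u : MV G k0, u ∈ T → (g : GL I27 K) * ((u : ↥G) : GL I27 K) = ((u : ↥G) : GL I27 K) * (g : GL I27 K) := by
    intro u hu
    have h3 := hg u ⟨u, hu, rfl⟩
    exact congrArg (fun x : ↥G => (x : GL I27 K)) h3
  have hgm : ∀ u : MV G k0, u ∈ T → ((g : GL I27 K) : Matrix I27 I27 K) * (((u : ↥G) : GL I27 K) : Matrix I27 I27 K) =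
      (((u : ↥G) : GL I27 K) : Matrix I27 I27 K) * ((g : GL I27 K) : Matrix I27 I27 K) := by
    intro u hu
    have h4 := congrArg (fun x : GL I27 K => (x : Matrix I27 I27 K)) (hgT u hu)
    simpa only [Units.val_mul] using h4
  have hc' : ∀ k : Fin 4, k ≠ 0 → ((c : GL I27 K) : Matrix I27 I27 K) * (Ph 0 (-1) * Ph k (-1)) =
      Ph 0 (-1) * Ph k (-1) * ((c : GL I27 K) : Matrix I27 I27 K) := by
    intro k hk0
    obtain ⟨t, ht, ht2, ht4, f, hf0, hfd, hfr⟩ := hyy k hk0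
    let tH : ↥H := ⟨(t : ↥G), hTH ⟨t, ht, rfl⟩⟩
    have hcore : tH ^ 2 ^ 1 ∈ Cfsg.pCore 2 ↥H := by
      refine Cfsg.Agent.H408.Hall.MTwo.mem_pCore_of_rank (p := p) (j := 1) (r := 1) hpH (rep H) hf0 (by simpa using hfd)
        ?_ ?_ ?_
      · exact hfr
      · refine Subtype.ext (Subtype.ext (Units.ext ?_))
        rw [Subgroup.coe_pow, Subgroup.coe_pow, mat_pow]
        exact ht4
      · intro x _ _ hr
        have hox : (orderOf x : K) ≠ 0 := by
          intro h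
          rw [CharP.cast_eq_zero_iff K p] at h
          exact hpH (h.trans (orderOf_dvd_natCard x))
        have h3 := Cfsg.Agent.H757.Hall.eq_one_of_rank (hG (x : ↥G).2) hox (by
          have := pow_orderOf_eq_one x
          have h4 := congrArg (fun t : ↥H => ((t : ↥G) : GL I27 K)) this
          simpa only [Subgroup.coe_pow, Subgroup.coe_one] using h4) (by
          have e : ((((x : ↥G) : GL I27 K) : Matrix I27 I27 K) - 1).mulVecLin = rep H x - 1 := by
            rw [rep_apply]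
            refine LinearMap.ext fun v => ?_
            show ((((x : ↥G) : GL I27 K) : Matrix I27 I27 K) - 1) *ᵥ v = (((x : ↥G) : GL I27 K) : Matrix I27 I27 K) *ᵥ v - v
            rw [Matrix.sub_mulVec, Matrix.one_mulVec]
          rw [e]
          exact hr.trans (by norm_num))
        exact Subtype.ext (Subtype.ext h3)
    have h3 := hc _ hcore
    have h4 := congrArg (fun x : ↥G => ((x : GL I27 K) : Matrix I27 I27 K)) h3
    have h5 : (((tH : ↥G) : GL I27 K) : Matrix I27 I27 K) = (((t : ↥G) : GL I27 K) : Matrix I27 I27 K) := rfl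
    simp only [pow_one, Subgroup.coe_mul, Subgroup.coe_pow, Units.val_mul, mat_pow, h5, ht2] at h4
    exact h4
  refine Subtype.ext (Cfsg.Agent.H343.Hall.EComm.comm_of_frame'_of hE h2 (hG g.2) (hG c.2) (fun k => ?_) (fun k => ?_)
    (hgT v' hvT) (hgT w' hwT) (fun k => nrm_comm h2 hv2 k) (fun k => nrm_comm h2 hw2 k) (hc' 1 (by decide))
    (hc' 2 (by decide)))
  · obtain ⟨A, B, hA, hB, hAB, ⟨u, hu, hu1⟩, ⟨u', hu', hu1'⟩⟩ := exists_AB (p := p) h2 hk P0 k
    obtain ⟨t, ht, h4⟩ := hP0T u hu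
    obtain ⟨t', ht', h4'⟩ := hP0T u' hu'
    exact ⟨A, B, hA, hB, hAB, by rw [← hu1, ← h4]; exact hgm t ht, by rw [← hu1', ← h4']; exact hgm t' ht'⟩
  · obtain ⟨t, ht, h4⟩ := hzz k
    rw [← h4]
    exact hgm t ht

end

end Cfsg.Agent.H910.Hall.E6B
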